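import Mathlib
import Cfsg.Agent.H379.P4.Defs

/-!
# S3591: elimination of the alternating groups (helper256, task 1120)
-/

set_option autoImplicit false

universe u

namespace Cfsg.Agent.H256.PFour

open Cfsg Cfsg.Agent.H379.P4 Equiv Equiv.Perm

variable {p q : ℕ}

/-- prime divisors of `R q` are congruent to 1 modulo 4 -/
theorem mod_four (hP : Par p q) {r : ℕ} (hr : r.Prime) (h : r ∣ R q) : r % 4 = 1 := by
  have h2 : r ≠ 2 := by
    rintro rfl
    exact hP.two h
  have h1 : r ∣ q ^ 2 + 1 := hP.R_mul ▸ h.mul_right _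
  have : Fact r.Prime := ⟨hr⟩
  have h3 : r % 4 ≠ 3 := by
    apply ZMod.mod_four_ne_three_of_sq_eq_neg_one (y := (q : ZMod r))
    have h4 : ((q ^ 2 + 1 : ℕ) : ZMod r) = 0 := (ZMod.natCast_eq_zero_iff _ _).2 h1
    push_cast at h4
    exact eq_neg_of_add_eq_zero_left h4
  have h5 : r % 2 = 1 := hr.eq_two_or_odd.resolve_left h2
  omega

theorem not_three (hP : Par p q) : ¬ 3 ∣ R q := fun h => by
  have := mod_four hP Nat.prime_three h
  omega

theorem exists_type {n : ℕ} (m : Multiset ℕ) (h1 : m.sum ≤ n) (h2 : ∀ a ∈ m, 2 ≤ a)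
    (h3 : Even (m.sum + Multiset.card m)) : ∃ x : alternatingGroup (Fin n), orderOf x = m.lcm := by
  obtain ⟨g, hg⟩ := (exists_with_cycleType_iff (α := Fin n) (m := m)).2 ⟨by rwa [Fintype.card_fin], h2⟩
  have hs : g ∈ alternatingGroup (Fin n) := by
    rw [mem_alternatingGroup, sign_of_cycleType, hg]
    exact h3.neg_one_pow
  refine ⟨⟨g, hs⟩, ?_⟩
  rw [Subgroup.orderOf_mk, ← lcm_cycleType, hg]

theorem exists_odd {n m : ℕ} (hm : m % 2 = 1) (h2 : 2 ≤ m) (hn : m ≤ n) :
    ∃ x : alternatingGroup (Fin n), orderOf x = m := by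
  obtain ⟨x, hx⟩ := exists_type (n := n) {m} (by simpa using hn) (by simpa using h2)
    (by rw [Multiset.sum_singleton, Multiset.card_singleton, Nat.even_iff]; omega)
  exact ⟨x, by rw [hx, Multiset.lcm_singleton]; simp⟩

theorem exists_even {n m : ℕ} (hm : m % 2 = 0) (h2 : 2 ≤ m) (hn : m + 2 ≤ n) :
    ∃ x : alternatingGroup (Fin n), orderOf x = m := by
  obtain ⟨x, hx⟩ := exists_type (n := n) {m, 2} (by simpa using hn) (by simpa using h2)
    (by simp [Nat.even_iff]; omega)
  refine ⟨x, ?_⟩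
  rw [hx]
  have : ({m, 2} : Multiset ℕ) = m ::ₘ {2} := rfl
  rw [this, Multiset.lcm_cons, Multiset.lcm_singleton]
  simp only [normalize_eq]
  exact Nat.lcm_eq_left (Nat.dvd_of_mod_eq_zero hm)

theorem exists_three {n r : ℕ} (hr : r.Prime) (h5 : 5 ≤ r) (hn : r + 3 ≤ n) :
    ∃ x : alternatingGroup (Fin n), orderOf x = r * 3 := by
  have ho : r % 2 = 1 := hr.eq_two_or_odd.resolve_left (by omega)
  obtain ⟨x, hx⟩ := exists_type (n := n) {r, 3} (by simpa using hn) (by
      intro a ha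
      have : a = r ∨ a = 3 := by simpa using ha
      rcases this with rfl | rfl <;> omega)
    (by simp [Nat.even_iff]; omega)
  refine ⟨x, ?_⟩
  rw [hx]
  have : ({r, 3} : Multiset ℕ) = r ::ₘ {3} := rfl
  rw [this, Multiset.lcm_cons, Multiset.lcm_singleton]
  simp only [normalize_eq]
  exact Nat.Coprime.lcm_eq_mul ((Nat.coprime_primes hr Nat.prime_three).2 (by omega))

theorem alt {n : ℕ} (hP : Par p q) (hn : 5 ≤ n) (h : Hyp p q (alternatingGroup (Fin n))) : False := by
  have hdvd : R q ∣ Nat.factorial n := by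
    refine h.dvd_card.trans ?_
    have h1 := Subgroup.card_subgroup_dvd_card (alternatingGroup (Fin n))
    rwa [Nat.card_perm, Nat.card_fin] at h1
  -- the primes dividing `R`
  have hprime : ∀ r : ℕ, r.Prime → r ∣ R q → r % 4 = 1 ∧ 5 ≤ r ∧ r ≤ n ∧ n ≤ r + 2 := by
    intro r hr hrR
    have h4 := mod_four hP hr hrR
    have h5 : 5 ≤ r := by
      have := hr.one_lt
      omega
    refine ⟨h4, h5, (Nat.Prime.dvd_factorial hr).1 (hrR.trans hdvd), ?_⟩
    by_contra hlt
    obtain ⟨x, hx⟩ := exists_three (n := n) hr h5 (by omega)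
    exact h.not_adj hP hr hrR (not_three hP) (x := x) (by rw [hx]; exact Dvd.intro _ rfl)
      (by rw [hx]; exact Dvd.intro_left _ rfl)
  have hbig := hP.R_big
  obtain ⟨r, hr, hrR⟩ := Nat.exists_prime_and_dvd (n := R q) (by omega)
  obtain ⟨h4, h5, hrn, hnr⟩ := hprime r hr hrR
  -- `R = r`
  have hR : R q = r := by
    obtain ⟨m, hm⟩ := hrR
    by_cases hm1 : m = 1
    · rw [hm, hm1, mul_one]
    exfalso
    obtain ⟨s, hs, hsm⟩ := Nat.exists_prime_and_dvd hm1
    obtain ⟨g4, g5, hsn, hns⟩ := hprime s hs (hm ▸ hsm.mul_left r)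
    have hsr : s = r := by omega
    subst hsr
    have h1 : s * s ∣ Nat.factorial (s + 2) := by
      refine (Nat.mul_dvd_mul_left s hsm).trans ?_
      rw [← hm]
      exact hdvd.trans (Nat.factorial_dvd_factorial hnr)
    obtain ⟨k, rfl⟩ : ∃ k, s = k + 1 := ⟨s - 1, by omega⟩
    rw [Nat.factorial_succ, Nat.factorial_succ, Nat.factorial_succ] at h1
    have h2 : k + 1 ∣ (k + 1 + 1 + 1) * ((k + 1 + 1) * Nat.factorial k) := by
      have h3 : (k + 1) * (k + 1) ∣ (k + 1) * ((k + 1 + 1 + 1) * ((k + 1 + 1) * Nat.factorial k)) := by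
        refine h1.trans (dvd_of_eq ?_)
        ring
      exact Nat.dvd_of_mul_dvd_mul_left (by omega) h3
    rcases hs.dvd_mul.1 h2 with h3 | h3
    · have h6 : k + 1 ∣ 2 := (Nat.dvd_add_right (dvd_refl (k + 1))).1 (by
        have : k + 1 + 1 + 1 = k + 1 + 2 := by ring
        rwa [this] at h3)
      have := Nat.le_of_dvd (by norm_num) h6
      omega
    · rcases hs.dvd_mul.1 h3 with h6 | h6
      · have h7 : k + 1 ∣ 1 := (Nat.dvd_add_right (dvd_refl (k + 1))).1 h6
        have := Nat.le_of_dvd (by norm_num) h7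
        omega
      · have := (Nat.Prime.dvd_factorial hs).1 h6
        omega
  rw [hR] at hbig
  -- the three orders
  have hcop : ∀ m : ℕ, 0 < m → m < r → Nat.Coprime (R q) m := by
    intro m h0 h1
    rw [hR, Nat.Prime.coprime_iff_not_dvd hr]
    intro h2
    have := Nat.le_of_dvd h0 h2
    omega
  have l2 : Lam p q (r - 2) := h.lam hP (exists_odd (n := n) (m := r - 2) (by omega) (by omega) (by omega))
    (Or.inl (hcop _ (by omega) (by omega)))
  have l3 : Lam p q (r - 3) := h.lam hP (exists_even (n := n) (m := r - 3) (by omega) (by omega) (by omega))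
    (Or.inl (hcop _ (by omega) (by omega)))
  have l4 : Lam p q (r - 4) := h.lam hP (exists_odd (n := n) (m := r - 4) (by omega) (by omega) (by omega))
    (Or.inl (hcop _ (by omega) (by omega)))
  obtain ⟨t, ht⟩ : ∃ t, r = t + 4 := ⟨r - 4, by omega⟩
  have e2 : r - 2 = t + 2 := by omega
  have e3 : r - 3 = t + 1 := by omega
  have e4 : r - 4 = t := by omega
  rw [e2] at l2
  rw [e3] at l3
  rw [e4] at l4
  have c1 : Nat.Coprime (t + 2) (t + 1) := by
    rw [show t + 2 = t + 1 + 1 by ring]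
    exact (Nat.coprime_self_add_left (m := t + 1) (n := 1)).2 (Nat.coprime_one_left _)
  have c2 : Nat.Coprime (t + 1) t := (Nat.coprime_self_add_left (m := t) (n := 1)).2 (Nat.coprime_one_left _)
  have c3 : Nat.Coprime (t + 2) t := by
    rw [Nat.coprime_self_add_left]
    rw [Nat.coprime_two_left, Nat.odd_iff]
    omega
  have hs := hP.size ((l2.mul l3 c1).mul l4 (Nat.Coprime.mul_left c3 c2))
  rw [hR, ht] at hs
  have ht13 : 13 ≤ t := by omega
  have h1 : 2 * (t + 4) ≤ t * t := by nlinarith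
  have h2 : (2 * (t + 4)) ^ 3 ≤ (t * t) ^ 3 := Nat.pow_le_pow_left h1 3
  have h3 : (t * t) ^ 3 ≤ ((t + 2) * (t + 1) * t) ^ 2 := by
    have : t ^ 3 ≤ (t + 2) * (t + 1) * t := by nlinarith
    calc (t * t) ^ 3 = (t ^ 3) ^ 2 := by ring
      _ ≤ _ := Nat.pow_le_pow_left this 2
  have h6 : (2 * (t + 4)) ^ 3 = 8 * (t + 4) ^ 3 := by ring
  have h7 : 0 < (t + 4) ^ 3 := by positivity
  omega

end Cfsg.Agent.H256.PFour
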