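import Mathlib
import Cfsg.Agent.H256.PFour.Alt
import Cfsg.Agent.H374.R.Spor

/-!
# S3591: orders of sporadic groups divisible by `R q` (helper256, task 1120)
-/

set_option autoImplicit false

namespace Cfsg.Agent.H256.PFour

open Cfsg Cfsg.Agent.H379.P4

variable {p q : ℕ}

theorem cop (hP : Par p q) {s : ℕ} (hs : s.Prime) (h : s % 4 ≠ 1) (e : ℕ) : Nat.Coprime (R q) (s ^ e) := by
  apply Nat.Coprime.pow_right
  rw [Nat.coprime_comm, Nat.Prime.coprime_iff_not_dvd hs]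
  exact fun h1 => h (mod_four hP hs h1)

theorem dvd_AA (hP : Par p q) (h : R q ∣ H374.R.Spor.L) :
    R q ∣ 5 ^ 9 * (13 ^ 3 * (17 ^ 1 * (29 ^ 1 * (37 ^ 1 * 41 ^ 1)))) := by
  have e : H374.R.Spor.L = (2 ^ 46 * 3 ^ 20 * (7 ^ 6 * 11 ^ 3 * 19 ^ 1 * 23 ^ 1 * 31 ^ 1 * 43 ^ 1 * 47 ^ 1 * 59 ^ 1 *
      67 ^ 1 * 71 ^ 1)) * (5 ^ 9 * (13 ^ 3 * (17 ^ 1 * (29 ^ 1 * (37 ^ 1 * 41 ^ 1))))) := by
    unfold H374.R.Spor.L; norm_num
  rw [e] at h
  refine Nat.Coprime.dvd_of_dvd_mul_left ?_ h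
  refine ((cop hP (by norm_num) (by norm_num) _).mul_right (cop hP (by norm_num) (by norm_num) _)).mul_right ?_
  refine Nat.Coprime.mul_right (Nat.Coprime.mul_right (Nat.Coprime.mul_right (Nat.Coprime.mul_right
    (Nat.Coprime.mul_right (Nat.Coprime.mul_right (Nat.Coprime.mul_right (Nat.Coprime.mul_right
    (Nat.Coprime.mul_right ?_ ?_) ?_) ?_) ?_) ?_) ?_) ?_) ?_) ?_ <;>
  exact cop hP (by norm_num) (by norm_num) _

/-- integer square roots (Newton) -/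
def nsq (n : ℕ) : ℕ → ℕ → ℕ
  | 0, x => x
  | k + 1, x => nsq n k (if (x + n / x) / 2 < x then (x + n / x) / 2 else x)

def D (i j a b c d : ℕ) : ℕ := 5 ^ i * (13 ^ j * (17 ^ a * (29 ^ b * (37 ^ c * 41 ^ d))))

def rt (n : ℕ) : ℕ := nsq n 60 (2 ^ 27)

def isRt (n : ℕ) : Bool := Nat.ble (rt n * rt n) n && Nat.blt n ((rt n + 1) * (rt n + 1))

theorem eq_rt {n x : ℕ} (h : isRt n = true) (hx : x * x = n) : x = rt n := by
  unfold isRt at h
  rw [Bool.and_eq_true, Nat.ble_eq, Nat.blt_eq] at h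
  obtain ⟨h1, h2⟩ := h
  rw [← hx] at h1 h2
  have h3 := Nat.mul_self_le_mul_self_iff.1 h1
  have h4 := Nat.mul_self_lt_mul_self_iff.1 h2
  rw [hx] at h3 h4
  omega

/-- the primes of the sporadic groups -/
def pl : List ℕ := [7, 11, 13, 17, 19, 23, 29, 31, 67]

/-- the check for a candidate `x` for `q` -/
def chk (m x : ℕ) : Bool :=
  H437.sporList.all fun N => !(N % m == 0) || (pl.any fun s => N % s == 0 && !((x * (x ^ 4 - 1)) % s == 0)) ||
    ((N == 604800 || N == 4030387200 || N == 145926144000) && m % 5 == 0) || N == 17971200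

def test (m : ℕ) : Bool :=
  Nat.blt m 17 ||
  (isRt (m - 1) && isRt (2 * m - 1) &&
    (!(rt (m - 1) * rt (m - 1) + 1 == m) || (rt (m - 1) % 2 == 1) || chk m (rt (m - 1))) &&
    (!(rt (2 * m - 1) * rt (2 * m - 1) + 1 == 2 * m) || chk m (rt (2 * m - 1))))

theorem test_all : ∀ i < 10, ∀ j < 4, ∀ a < 2, ∀ b < 2, ∀ c < 2, ∀ d < 2, test (D i j a b c d) = true := by
  decide +kernel

end Cfsg.Agent.H256.PFour
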