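import Mathlib
import Cfsg.Agent.H256.PFour.SporNum
import Cfsg.Agent.H437.Spor
import Cfsg.Agent.NotCT.Orders
import Cfsg.Agent.H94.Sp.Janko

/-!
# S3591: elimination of the sporadic groups (helper256, task 1120)
-/

set_option autoImplicit false

universe u

namespace Cfsg.Agent.H256.PFour

open Cfsg Cfsg.Agent.H379.P4

variable {p q : ℕ}

theorem prime_cond (hP : Par p q) {S : Type u} [Group S] [Finite S] (h : Hyp p q S) {s : ℕ} (hs : s.Prime)
    (h7 : 5 ≤ s) (hd : s ∣ Nat.card S) : s ∣ q * (q ^ 4 - 1) := by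
  have : Fact s.Prime := ⟨hs⟩
  obtain ⟨x, hx⟩ := exists_prime_orderOf_dvd_card' s hd
  have h1 := h.om x
  rw [hx] at h1
  have e : q ^ 4 - 1 = (q ^ 2 + 1) * (q ^ 2 - 1) := by
    have h2 : 1 ≤ q ^ 2 := Nat.one_le_pow _ _ (by have := hP.big; omega)
    obtain ⟨t, ht⟩ : ∃ t, q ^ 2 = t + 1 := ⟨q ^ 2 - 1, by omega⟩
    have h3 : q ^ 4 = (t + 1) * (t + 1) := by rw [← ht]; ring
    rw [h3, ht]
    have h4 : (t + 1) * (t + 1) = (t + 1 + 1) * t + 1 := by ring
    rw [h4, Nat.add_sub_cancel, Nat.add_sub_cancel]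
  rcases hP.om_cases h1 with h2 | h2
  · rw [e]
    exact ((h2.trans (hP.R_mul ▸ Nat.dvd_mul_right _ _)).mul_right _).mul_left _
  · rcases hs.dvd_mul.1 h2 with h3 | h3
    · have h4 : s ∣ p := by
        unfold ps at h3
        split_ifs at h3 with a b
        · exfalso
          have : s ∣ 3 := hs.dvd_of_dvd_pow (n := 2) (by norm_num; exact h3)
          have := Nat.le_of_dvd (by norm_num) this
          omega
        · exfalso
          have : s ∣ 2 := hs.dvd_of_dvd_pow (n := 2) (by norm_num; exact h3)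
          have := Nat.le_of_dvd (by norm_num) this
          omega
        · exact h3
      exact (h4.trans hP.p_dvd).mul_right _
    · rw [e]
      exact ((h3.trans (hP.E_mul ▸ Nat.dvd_mul_right _ _)).mul_left _).mul_left _

/-- the candidates -/
theorem cand (hP : Par p q) {S : Type u} [Group S] [Finite S] (h : Hyp p q S) (hN : Nat.card S ∈ H437.sporList) :
    ((Nat.card S = 604800 ∨ Nat.card S = 4030387200 ∨ Nat.card S = 145926144000) ∧ 5 ∣ R q) ∨
      Nat.card S = 17971200 := by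
  have hd := h.dvd_card
  obtain ⟨k1, k2, hk1, hk2, e1⟩ := (Nat.dvd_mul).1 (dvd_AA hP (hd.trans (H374.R.Spor.spor_dvd _ hN)))
  obtain ⟨k3, k4, hk3, hk4, e2⟩ := (Nat.dvd_mul).1 hk2
  obtain ⟨k5, k6, hk5, hk6, e3⟩ := (Nat.dvd_mul).1 hk4
  obtain ⟨k7, k8, hk7, hk8, e4⟩ := (Nat.dvd_mul).1 hk6
  obtain ⟨k9, k10, hk9, hk10, e5⟩ := (Nat.dvd_mul).1 hk8
  obtain ⟨i, hi, rfl⟩ := (Nat.dvd_prime_pow (by norm_num)).1 hk1
  obtain ⟨j, hj, rfl⟩ := (Nat.dvd_prime_pow (by norm_num)).1 hk3
  obtain ⟨a, ha, rfl⟩ := (Nat.dvd_prime_pow (by norm_num)).1 hk5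
  obtain ⟨b, hb, rfl⟩ := (Nat.dvd_prime_pow (by norm_num)).1 hk7
  obtain ⟨c, hc, rfl⟩ := (Nat.dvd_prime_pow (by norm_num)).1 hk9
  obtain ⟨d, hdd, rfl⟩ := (Nat.dvd_prime_pow (by norm_num)).1 hk10
  have hR : R q = D i j a b c d := by
    rw [← e1, ← e2, ← e3, ← e4, ← e5]
    rfl
  have ht := test_all i (by omega) j (by omega) a (by omega) b (by omega) c (by omega) d (by omega)
  rw [← hR] at ht
  unfold test at ht
  have h17 : Nat.blt (R q) 17 = false := by
    have := hP.R_big
    by_contra hne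
    rw [Bool.not_eq_false, Nat.blt_eq] at hne
    omega
  rw [h17, Bool.false_or, Bool.and_eq_true, Bool.and_eq_true, Bool.and_eq_true] at ht
  obtain ⟨⟨⟨t1, t2⟩, t3⟩, t4⟩ := ht
  have hb := hP.big
  -- the check holds for `q`
  have hchk : chk (R q) q = true := by
    rcases hP.R_eq with ⟨-, g1, g2, -⟩ | ⟨-, g1, g2, -⟩
    · have e6 : q = rt (2 * R q - 1) := eq_rt t2 (by omega)
      rw [← e6] at t4
      rw [g2] at t4
      simpa using t4
    · have e6 : q = rt (R q - 1) := eq_rt t1 (by omega)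
      rw [← e6] at t3
      have g3 : (q * q + 1 == R q) = true := by rw [g2]; simp
      have g4 : (q % 2 == 1) = false := by
        have : q % 2 = 0 := by omega
        rw [this]; rfl
      rw [g3, g4] at t3
      simpa using t3
  have hc' := List.all_eq_true.1 hchk _ hN
  rw [Bool.or_eq_true, Bool.or_eq_true, Bool.or_eq_true] at hc'
  rcases hc' with ((hc' | hc') | hc') | hc'
  · exfalso
    have : Nat.card S % R q = 0 := Nat.mod_eq_zero_of_dvd hd
    rw [this] at hc'
    simp at hc'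
  · exfalso
    obtain ⟨s, hs, hs2⟩ := List.any_eq_true.1 hc'
    have hsp : s.Prime ∧ 5 ≤ s := by
      unfold pl at hs
      simp only [List.mem_cons, List.not_mem_nil, or_false] at hs
      rcases hs with rfl | rfl | rfl | rfl | rfl | rfl | rfl | rfl | rfl <;> norm_num
    rw [Bool.and_eq_true] at hs2
    have hs3 : s ∣ Nat.card S := Nat.dvd_of_mod_eq_zero (by simpa using hs2.1)
    have hs4 := Nat.mod_eq_zero_of_dvd (prime_cond hP h hsp.1 hsp.2 hs3)
    have hs5 := hs2.2
    rw [hs4] at hs5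
    simp at hs5
  · left
    rw [Bool.and_eq_true, Bool.or_eq_true, Bool.or_eq_true] at hc'
    refine ⟨?_, Nat.dvd_of_mod_eq_zero (by simpa using hc'.2)⟩
    rcases hc'.1 with (h1 | h1) | h1
    · exact Or.inl (by simpa using h1)
    · exact Or.inr (Or.inl (by simpa using h1))
    · exact Or.inr (Or.inr (by simpa using h1))
  · exact Or.inr (by simpa using hc')

/-- 5 is not adjacent to 2 if it divides `R q` -/
theorem not_nr (hP : Par p q) {S : Type u} [Group S] (h : Hyp p q S) (h5 : 5 ∣ R q)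
    (hn : H94.PG.Sp.Nr S 5) : False := by
  rcases hn with h1 | ⟨-, -, -, x, y, hx, hy, hxy⟩
  · norm_num at h1
  · refine h.not_two hP (by norm_num : Nat.Prime 5) h5 ⟨x * y, ?_⟩
    rw [hxy.orderOf_mul_eq_mul_orderOf_of_coprime (by rw [hx, hy]; norm_num), hx, hy]

theorem spor (hP : Par p q) {S : Type u} [Group S] (hS : Cfsg.IsSporadicGroup S) (h : Hyp p q S) : False := by
  have hN := H437.spor_mem (Or.inr hS)
  have hfin : Finite S := by
    apply Nat.finite_of_card_ne_zero
    intro h0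
    rw [h0] at hN
    revert hN
    decide
  have hc := cand hP h hN
  rcases hS with g | g | g | g | g | g | g | g | g | g | g | g | g | g | g | g | g | g | g | g | g | g | g | g | g | g
  · rw [NotCT.Orders.m11 g] at hc; norm_num at hc
  · rw [NotCT.Orders.m12 g] at hc; norm_num at hc
  · rw [NotCT.Orders.m22 g] at hc; norm_num at hc
  · rw [NotCT.Orders.m23 g] at hc; norm_num at hc
  · rw [NotCT.Orders.m24 g] at hc; norm_num at hc
  · rw [NotCT.Orders.j1 g] at hc; norm_num at hc
  · rw [NotCT.Orders.j2 g] at hc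
    norm_num at hc
    exact not_nr hP h hc (H94.PG.Sp.cent_j2 g (by norm_num) (by norm_num))
  · rw [NotCT.Orders.j3 g] at hc; norm_num at hc
  · rw [NotCT.Orders.j4 g] at hc; norm_num at hc
  · rw [NotCT.Orders.co1 g] at hc; norm_num at hc
  · rw [NotCT.Orders.co2 g] at hc; norm_num at hc
  · rw [NotCT.Orders.co3 g] at hc; norm_num at hc
  · rw [NotCT.Orders.mcl g] at hc; norm_num at hc
  · rw [NotCT.Orders.hs g] at hc; norm_num at hc
  · rw [NotCT.Orders.suz g] at hc; norm_num at hc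
  · rw [NotCT.Orders.he g] at hc
    norm_num at hc
    exact not_nr hP h hc (H94.PG.Sp.cent_he g (by norm_num) (by norm_num))
  · rw [NotCT.Orders.ru g] at hc
    norm_num at hc
    exact not_nr hP h hc (H94.PG.Sp.cent_ru g (by norm_num) (by norm_num))
  · rw [NotCT.Orders.on g] at hc; norm_num at hc
  · rw [NotCT.Orders.ly g] at hc; norm_num at hc
  · rw [NotCT.Orders.fi22 g] at hc; norm_num at hc
  · rw [NotCT.Orders.fi23 g] at hc; norm_num at hc
  · rw [NotCT.Orders.fi24 g] at hc; norm_num at hc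
  · rw [NotCT.Orders.hn g] at hc; norm_num at hc
  · rw [NotCT.Orders.th g] at hc; norm_num at hc
  · rw [NotCT.Orders.b g] at hc; norm_num at hc
  · rw [NotCT.Orders.m g] at hc; norm_num at hc

end Cfsg.Agent.H256.PFour
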